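import Mathlib

/-!
# A reflective calculator for brackets in characteristic two (helper996, for S5916)

`K` a commutative ring of characteristic two, `V` a module with vectors `b s` (`s : ℕ`), a bilinear map `B` with
`B (b r) (b s) = Σ_{t ∈ bt r s} b t`, additive maps `Φ i` with `Φ i (c • b s) = c ^ (ks i) • Σ_{t ∈ tb i s} b t` and
coordinates `φ u`. The coefficients are polynomials over `F₂` in `x 0, x 1, …`; a monomial is the list of its exponents, a
vector is a list of pairs (index, monomial). `Ex` are the expressions, `val` their values, `run` the computed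
vectors: `val_eq`, `coord`, `rel`, `eq_of`.
-/

set_option autoImplicit false

namespace Cfsg.Agent.H996.L16

/-! ### monomials -/

section Mon

variable {K : Type*} [CommSemiring K] (x : ℕ → K)

/-- the value of the monomial with the exponents `m` in the variables `i, i + 1, …` -/
def evM : ℕ → List ℕ → K
  | _, [] => 1
  | i, a :: m => x i ^ a * evM (i + 1) m

/-- product of monomials -/
def mulM : List ℕ → List ℕ → List ℕ
  | [], m => m
  | a :: l, [] => a :: l
  | a :: l, b :: m => (a + b) :: mulM l m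

theorem evM_mul : ∀ (l m : List ℕ) (i : ℕ), evM x i (mulM l m) = evM x i l * evM x i m
  | [], m, i => by rw [mulM, evM, one_mul]
  | a :: l, [], i => by rw [mulM, evM, evM, mul_one]
  | a :: l, b :: m, i => by
    rw [mulM, evM, evM, evM, evM_mul l m, pow_add]
    ring

/-- powers of a monomial -/
def powM (k : ℕ) : List ℕ → List ℕ
  | [] => []
  | a :: m => (a * k) :: powM k m

theorem evM_pow (k : ℕ) : ∀ (m : List ℕ) (i : ℕ), evM x i (powM k m) = evM x i m ^ k
  | [], i => by rw [powM, evM, one_pow]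
  | a :: m, i => by rw [powM, evM, evM, evM_pow k m, mul_pow, pow_mul]

/-- remove the zeros at the end -/
def trM : List ℕ → List ℕ
  | [] => []
  | a :: m => if (Nat.beq a 0 && (trM m).isEmpty) = true then [] else a :: trM m

theorem evM_tr : ∀ (m : List ℕ) (i : ℕ), evM x i (trM m) = evM x i m
  | [], i => rfl
  | a :: m, i => by
    rw [trM]
    split_ifs with h
    · rw [Bool.and_eq_true] at h
      have h1 := evM_tr m (i + 1)
      rw [List.isEmpty_iff.1 h.2, evM] at h1
      rw [evM, evM, ← h1, Nat.eq_of_beq_eq_true h.1, pow_zero, one_mul]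
    · rw [evM, evM, evM_tr m]

/-- equality of monomials -/
def eqM : List ℕ → List ℕ → Bool
  | [], [] => true
  | [], _ :: _ => false
  | _ :: _, [] => false
  | a :: l, b :: m => Nat.beq a b && eqM l m

theorem eq_of_eqM : ∀ {l m : List ℕ}, eqM l m = true → l = m
  | [], [], _ => rfl
  | [], _ :: _, h => by simp [eqM] at h
  | _ :: _, [], h => by simp [eqM] at h
  | a :: l, b :: m, h => by
    rw [eqM, Bool.and_eq_true] at h
    rw [Nat.eq_of_beq_eq_true h.1, eq_of_eqM h.2]

/-- the value of a polynomial -/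
def evP (p : List (List ℕ)) : K := (p.map fun m => evM x 0 m).sum

end Mon

/-! ### vectors -/

/-- vectors: pairs (index, monomial) -/
abbrev Vec : Type := List (ℕ × List ℕ)

section Vec

variable {K V : Type*} [CommRing K] [CharP K 2] [AddCommGroup V] [Module K V] (x : ℕ → K) (b : ℕ → V)

/-- the value of a vector -/
def ev (l : Vec) : V := (l.map fun p => evM x 0 p.2 • b p.1).sum

omit [CharP K 2] in
theorem ev_nil : ev x b [] = 0 := rfl

omit [CharP K 2] in
theorem ev_cons (p : ℕ × List ℕ) (l : Vec) : ev x b (p :: l) = evM x 0 p.2 • b p.1 + ev x b l := by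
  rw [ev, List.map_cons, List.sum_cons, ev]

omit [CharP K 2] in
theorem ev_append (l m : Vec) : ev x b (l ++ m) = ev x b l + ev x b m := by
  rw [ev, List.map_append, List.sum_append, ev, ev]

theorem add_self' (K : Type*) [CommRing K] [CharP K 2] {V : Type*} [AddCommGroup V] [Module K V] (v : V) : v + v = 0 := by
  have h2 : (2 : K) = 0 := CharP.cast_eq_zero K 2
  rw [← two_smul K v, h2, zero_smul]

/-- insertion with cancellation -/
def ins (p : ℕ × List ℕ) : Vec → Vec
  | [] => [p]
  | q :: l => if (Nat.beq p.1 q.1 && eqM p.2 q.2) = true then l else q :: ins p l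

theorem ev_ins (p : ℕ × List ℕ) : ∀ l : Vec, ev x b (ins p l) = evM x 0 p.2 • b p.1 + ev x b l
  | [] => by rw [ins, ev_cons]
  | q :: l => by
    rw [ins]
    split_ifs with h
    · rw [Bool.and_eq_true] at h
      have h1 : p = q := Prod.ext (Nat.eq_of_beq_eq_true h.1) (eq_of_eqM h.2)
      rw [ev_cons, ← h1, ← add_assoc, add_self' K, zero_add]
    · rw [ev_cons, ev_ins p l, ev_cons]
      abel

/-- trimming -/
def trV : Vec → Vec
  | [] => []
  | p :: l => (p.1, trM p.2) :: trV l

omit [CharP K 2] in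
theorem ev_trV : ∀ l : Vec, ev x b (trV l) = ev x b l
  | [] => rfl
  | p :: l => by rw [trV, ev_cons, ev_trV l, ev_cons, evM_tr]

/-- cancellation -/
def nrm : Vec → Vec
  | [] => []
  | p :: l => ins p (nrm l)

theorem ev_nrm : ∀ l : Vec, ev x b (nrm l) = ev x b l
  | [] => rfl
  | p :: l => by rw [nrm, ev_ins, ev_nrm l, ev_cons]

/-- the terms `(t, m)`, `t ∈ ts` -/
def trm (m : List ℕ) : List ℕ → Vec
  | [] => []
  | t :: ts => (t, m) :: trm m ts

omit [CharP K 2] in
theorem ev_trm (m : List ℕ) : ∀ ts : List ℕ, ev x b (trm m ts) = evM x 0 m • (ts.map b).sum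
  | [] => by rw [trm, ev_nil, List.map_nil, List.sum_nil, smul_zero]
  | t :: ts => by rw [trm, ev_cons, ev_trm m ts, List.map_cons, List.sum_cons, smul_add]

variable {b} (B : V →ₗ[K] V →ₗ[K] V) (bt : ℕ → ℕ → List ℕ) (hB : ∀ r s, B (b r) (b s) = ((bt r s).map b).sum)

/-- bracket of a term with a vector -/
def br1 (p : ℕ × List ℕ) : Vec → Vec
  | [] => []
  | q :: m => trm (mulM p.2 q.2) (bt p.1 q.1) ++ br1 p m

/-- bracket of two vectors -/
def br0 : Vec → Vec → Vec
  | [], _ => []
  | p :: l, m => br1 bt p m ++ br0 l m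

include hB in
omit [CharP K 2] in
theorem ev_br1 (p : ℕ × List ℕ) : ∀ m : Vec, ev x b (br1 bt p m) = B (evM x 0 p.2 • b p.1) (ev x b m)
  | [] => by rw [br1, ev_nil, map_zero]
  | q :: m => by
    rw [br1, ev_append, ev_trm, ev_br1 p m, ev_cons, map_add, evM_mul, ← hB, map_smul, map_smul, LinearMap.smul_apply]
    congr 1
    rw [LinearMap.smul_apply, smul_smul, mul_comm]

include hB in
omit [CharP K 2] in
theorem ev_br0 : ∀ l m : Vec, ev x b (br0 bt l m) = B (ev x b l) (ev x b m)
  | [], m => by rw [br0, ev_nil, map_zero, LinearMap.zero_apply]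
  | p :: l, m => by rw [br0, ev_append, ev_br1 x B bt hB, ev_br0 l m, ev_cons, map_add, LinearMap.add_apply]

/-- an operator on vectors -/
def op0 (tb : ℕ → List ℕ) (k : ℕ) : Vec → Vec
  | [] => []
  | p :: l => trm (powM k p.2) (tb p.1) ++ op0 tb k l

omit [CharP K 2] in
theorem ev_op0 (tb : ℕ → List ℕ) (k : ℕ) (Φ : V → V) (h0 : Φ 0 = 0) (ha : ∀ v w, Φ (v + w) = Φ v + Φ w)
    (hs : ∀ (c : K) s, Φ (c • b s) = c ^ k • ((tb s).map b).sum) : ∀ l : Vec, ev x b (op0 tb k l) = Φ (ev x b l)
  | [] => by rw [op0, ev_nil, h0]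
  | p :: l => by rw [op0, ev_append, ev_trm, ev_op0 tb k Φ h0 ha hs l, ev_cons, ha, hs, evM_pow]

/-! ### expressions -/

/-- expressions -/
inductive Ex : Type
  | lit (l : Vec) : Ex
  | add (a c : Ex) : Ex
  | br (a c : Ex) : Ex
  | op (i : ℕ) (a : Ex) : Ex

variable (b) in
/-- the value -/
def Ex.val (Φ : ℕ → V → V) : Ex → V
  | .lit l => ev x b l
  | .add a c => a.val Φ + c.val Φ
  | .br a c => B (a.val Φ) (c.val Φ)
  | .op i a => Φ i (a.val Φ)

/-- the computed vector -/
def Ex.run (tb : ℕ → ℕ → List ℕ) (ks : ℕ → ℕ) : Ex → Vec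
  | .lit l => nrm (trV l)
  | .add a c => nrm (a.run tb ks ++ c.run tb ks)
  | .br a c => nrm (br0 bt (a.run tb ks) (c.run tb ks))
  | .op i a => nrm (op0 (tb i) (ks i) (a.run tb ks))

/-- the data for the operators -/
structure Ops (b : ℕ → V) (tb : ℕ → ℕ → List ℕ) (ks : ℕ → ℕ) (Φ : ℕ → V → V) : Prop where
  zero : ∀ i, Φ i 0 = 0
  add : ∀ i v w, Φ i (v + w) = Φ i v + Φ i w
  smul : ∀ i (c : K) s, Φ i (c • b s) = c ^ ks i • ((tb i s).map b).sum

include hB in
/-- **The value is the computed vector.** -/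
theorem Ex.val_eq {tb : ℕ → ℕ → List ℕ} {ks : ℕ → ℕ} {Φ : ℕ → V → V} (H : Ops (K := K) b tb ks Φ) :
    ∀ e : Ex, e.val x b B Φ = ev x b (e.run bt tb ks)
  | .lit l => by rw [Ex.val, Ex.run, ev_nrm, ev_trV]
  | .add a c => by rw [Ex.val, Ex.run, ev_nrm, ev_append, Ex.val_eq H a, Ex.val_eq H c]
  | .br a c => by rw [Ex.val, Ex.run, ev_nrm, ev_br0 x B bt hB, Ex.val_eq H a, Ex.val_eq H c]
  | .op i a => by rw [Ex.val, Ex.run, ev_nrm, ev_op0 x (tb i) (ks i) (Φ i) (H.zero i) (H.add i) (H.smul i), Ex.val_eq H a]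

/-! ### coordinates -/

/-- the coefficient of `b u` -/
def co (u : ℕ) : Vec → List (List ℕ)
  | [] => []
  | p :: l => if Nat.beq p.1 u = true then p.2 :: co u l else co u l

omit [CharP K 2] in
theorem co_eq {u : ℕ} (φ : V →ₗ[K] K) (hφ : ∀ s, φ (b s) = if s = u then 1 else 0) :
    ∀ l : Vec, φ (ev x b l) = evP x (co u l)
  | [] => by rw [ev_nil, map_zero, co, evP, List.map_nil, List.sum_nil]
  | p :: l => by
    rw [ev_cons, map_add, map_smul, hφ, co_eq φ hφ l, co]
    by_cases h : p.1 = u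
    · rw [if_pos h, if_pos (by rw [h]; exact Nat.beq_refl u), smul_eq_mul, mul_one, evP, evP, List.map_cons, List.sum_cons]
    · rw [if_neg h, if_neg (fun h1 => h (Nat.eq_of_beq_eq_true h1)), smul_zero, zero_add]

/-- polynomials as vectors -/
def asV (p : List (List ℕ)) : Vec := p.map fun m => (0, m)

omit [CharP K 2] in
theorem ev_asV (p : List (List ℕ)) : ev x (fun _ => (1 : K)) (asV p) = evP x p := by
  rw [asV, ev, List.map_map, evP]
  congr 1
  refine List.map_congr_left fun m _ => ?_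
  show evM x 0 m • (1 : K) = evM x 0 m
  rw [smul_eq_mul, mul_one]

/-- equality of polynomials -/
def eqP (p q : List (List ℕ)) : Bool := (nrm (trV (asV (p ++ q)))).isEmpty

theorem evP_eq_of {p q : List (List ℕ)} (h : eqP p q = true) : evP x p = evP x q := by
  have h1 : ev x (fun _ => (1 : K)) (nrm (trV (asV (p ++ q)))) = 0 := by
    rw [List.isEmpty_iff.1 h, ev_nil]
  rw [ev_nrm, ev_trV, ev_asV, evP, List.map_append, List.sum_append] at h1
  have h2 : evP x p + evP x q = 0 := h1
  have h3 := add_self' K (evP x q)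
  exact (add_right_cancel (h2.trans h3.symm))

/-- the test for a coordinate -/
def Ex.chk (tb : ℕ → ℕ → List ℕ) (ks : ℕ → ℕ) (e : Ex) (u : ℕ) (p : List (List ℕ)) : Bool := eqP (co u (e.run bt tb ks)) p

include hB in
/-- **coordinates** -/
theorem Ex.coord {tb : ℕ → ℕ → List ℕ} {ks : ℕ → ℕ} {Φ : ℕ → V → V} (H : Ops (K := K) b tb ks Φ) {e : Ex} {u : ℕ}
    {p : List (List ℕ)} (h : e.chk bt tb ks u p = true) (φ : V →ₗ[K] K) (hφ : ∀ s, φ (b s) = if s = u then 1 else 0) :
    φ (e.val x b B Φ) = evP x p := by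
  rw [Ex.val_eq x B bt hB H, co_eq x φ hφ]
  exact evP_eq_of x h

include hB in
/-- **relations** -/
theorem Ex.rel {tb : ℕ → ℕ → List ℕ} {ks : ℕ → ℕ} {Φ : ℕ → V → V} (H : Ops (K := K) b tb ks Φ) {e : Ex} {u : ℕ}
    {p : List (List ℕ)} (h : e.chk bt tb ks u p = true) (φ : V →ₗ[K] K) (hφ : ∀ s, φ (b s) = if s = u then 1 else 0)
    (h0 : e.val x b B Φ = 0) : evP x p = 0 := by
  rw [← Ex.coord x B bt hB H h φ hφ, h0, map_zero]

include hB in
/-- **equality of two expressions** -/
theorem Ex.eq_of {tb : ℕ → ℕ → List ℕ} {ks : ℕ → ℕ} {Φ : ℕ → V → V} (H : Ops (K := K) b tb ks Φ) {e e' : Ex}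
    (h : (nrm (e.run bt tb ks ++ e'.run bt tb ks)).isEmpty = true) : e.val x b B Φ = e'.val x b B Φ := by
  have h1 : ev x b (nrm (e.run bt tb ks ++ e'.run bt tb ks)) = 0 := by
    rw [List.isEmpty_iff.1 h, ev_nil]
  rw [ev_nrm, ev_append, ← Ex.val_eq x B bt hB H, ← Ex.val_eq x B bt hB H] at h1
  exact add_right_cancel (h1.trans (add_self' K (e'.val x b B Φ)).symm)

end Vec

end Cfsg.Agent.H996.L16
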