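import Cfsg.Agent.H996.L16.Tab

/-!
# The calculator for the Lie algebra of type `E₈` in characteristic two (helper996, for S5916)

Indices: `s < 240` the root vectors `er s`, `240 + i` (`i < 8`) the Cartan basis. Operators (for `H : H939.L16.Ops Fp ta`):
`0` is `Fp`, `1` is `ta`, `10 + r` is `xl r 1`.
-/

set_option autoImplicit false
set_option maxRecDepth 20000

namespace Cfsg.Agent.H996.L16

open Cfsg Cfsg.Lie Cfsg.Lie.ChevalleyDatum
open Cfsg.Agent.H939.L64 (KK LK brK)
open Cfsg.Agent.H413.L16
open Cfsg.Agent.ChevalleyStructure.Columns (car cor)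
open Cfsg.Agent.H939.L16 (wi xl)

theorem bltT {a b : ℕ} (h : a < b) : Nat.blt a b = true := Nat.ble_eq_true_of_le h

theorem ltB {a b : ℕ} (h : Nat.blt a b = true) : a < b := Nat.le_of_ble_eq_true h

theorem bltF {a b : ℕ} (h : ¬ a < b) : ¬ Nat.blt a b = true := fun h1 => h (ltB h1)

/-! ### the basis -/

/-- the basis: root vectors and the Cartan part -/
noncomputable def bs (s : ℕ) : LK := if s < 240 then er s else hv fun i => if (i : ℕ) + 240 = s then 1 else 0

theorem bs_er {s : ℕ} (h : s < 240) : bs s = er s := if_pos h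

theorem bs_hv (i : ℕ) : bs (240 + i) = hv fun k => if (k : ℕ) = i then 1 else 0 := by
  rw [bs, if_neg (by omega)]
  congr 1
  funext k
  by_cases h : (k : ℕ) = i
  · rw [if_pos h, if_pos (by omega)]
  · rw [if_neg h, if_neg (by omega)]

theorem bs_ge {s : ℕ} (h : 248 ≤ s) : bs s = 0 := by
  rw [bs, if_neg (by omega)]
  have : (fun i : Fin chevE8.rank => if (i : ℕ) + 240 = s then (1 : KK) else 0) = 0 := by
    funext i
    have hi : (i : ℕ) < 8 := lt_of_lt_of_eq i.2 rk8
    rw [if_neg (by omega)]
    rfl
  rw [this]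
  funext a
  rcases a with a | a <;> rfl

/-- the list of the bits -/
def ctb (c : ℕ → Bool) (L : List ℕ) : List ℕ := L.foldr (fun i l => if c i = true then (240 + i) :: l else l) []

theorem ctb_sum (c : ℕ → Bool) (L : List ℕ) :
    ((ctb c L).map bs).sum = (L.map fun i => if c i = true then bs (240 + i) else 0).sum := by
  induction L with
  | nil => rfl
  | cons i L ih =>
    rw [List.map_cons, List.sum_cons, ← ih]
    show ((if c i = true then (240 + i) :: ctb c L else ctb c L).map bs).sum = _
    split_ifs with h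
    · rw [List.map_cons, List.sum_cons]
    · rw [zero_add]

theorem sum_range8 {M : Type*} [AddCommMonoid M] (f : ℕ → M) : ((List.range 8).map f).sum = ∑ i ∈ Finset.range 8, f i := rfl

theorem ctb_hv (c : ℕ → Bool) : ((ctb c (List.range 8)).map bs).sum = hv fun k => if c k = true then 1 else 0 := by
  rw [ctb_sum, sum_range8]
  funext a
  rw [Finset.sum_apply]
  rcases a with a | a
  · have ha : (a : ℕ) < 8 := lt_of_lt_of_eq a.2 rk8
    rw [Finset.sum_eq_single (a : ℕ)]
    · show (if c a = true then bs (240 + a) else 0 : LK) (Sum.inl a) = if c a = true then 1 else 0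
      split_ifs with h
      · rw [bs_hv]
        exact if_pos rfl
      · rfl
    · intro i _ hi
      split_ifs with h
      · rw [bs_hv]
        exact if_neg (Ne.symm hi)
      · rfl
    · intro h
      exact absurd (Finset.mem_range.2 ha) h
  · refine Finset.sum_eq_zero fun i _ => ?_
    split_ifs
    · rw [bs_hv]
      rfl
    · rfl

theorem ct_eq (r : ℕ) : ct r = ctb (fun i => bit CO (8 * r + i)) (List.range 8) := rfl

theorem hr_eq {r : ℕ} (hr' : r < 240) : hr r = ((ct r).map bs).sum := by
  rw [ct_eq, ctb_hv]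
  unfold hr
  congr 1
  funext i
  have h := (co_spec hr' (lt_of_lt_of_eq i.2 rk8)).1
  by_cases h1 : bit CO (8 * r + i) = true
  · rw [if_pos h1, cast_odd (h.1 h1)]
  · rw [if_neg h1, cast_even (not_not.1 fun h2 => h1 (h.2 h2))]

theorem sum_car {r s : ℕ} (hr : 240 ≤ r) (hr8 : r < 248) (hs : s < 240) :
    (∑ i : Fin chevE8.rank, (if (i : ℕ) + 240 = r then (1 : KK) else 0) * ((car chevE8 i s : ℤ) : KK)) =
      if bit CA (8 * s + (r - 240)) = true then 1 else 0 := by
  have hk : r - 240 < chevE8.rank := by rw [rk8]; omega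
  rw [Finset.sum_eq_single (⟨r - 240, hk⟩ : Fin chevE8.rank)]
  · rw [if_pos (show r - 240 + 240 = r by omega), one_mul]
    have h := (co_spec (i := r - 240) hs (by omega)).2
    by_cases h1 : bit CA (8 * s + (r - 240)) = true
    · rw [if_pos h1, cast_odd (h.1 h1)]
    · rw [if_neg h1, cast_even (not_not.1 fun h2 => h1 (h.2 h2))]
  · intro i _ hi
    rw [if_neg, zero_mul]
    intro h
    exact hi (Fin.ext (by show (i : ℕ) = r - 240; omega))
  · intro h
    exact absurd (Finset.mem_univ _) h

/-- **the bracket on the basis** -/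
theorem bt_spec (r s : ℕ) : brK (bs r) (bs s) = ((bt r s).map bs).sum := by
  unfold bt
  by_cases hr : r < 240
  · rw [if_pos (bltT hr), bs_er hr]
    by_cases hs : s < 240
    · rw [if_pos (bltT hs), bs_er hs]
      by_cases hrs : r + s = 239
      · rw [if_pos (by rw [hrs]; rfl), show s = 239 - r by omega, br_neg hr, hr_eq hr]
      · rw [if_neg (fun h => hrs (Nat.eq_of_beq_eq_true h)), br_rr hr hs (by omega), tgT_eq hr hs]
        by_cases ht : tgT r s < 240
        · rw [if_pos (bltT ht), List.map_cons, List.map_nil,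
            List.sum_cons, List.sum_nil, add_zero, bs_er ht]
        · rw [if_neg (bltF ht), er_ge (by omega)]
          rfl
    · rw [if_neg (bltF hs)]
      by_cases hs8 : s < 248
      · rw [bs, if_neg hs, br_er_hv _ hr, sum_car (by omega) hs8 hr]
        by_cases hb : bit CA (8 * r + (s - 240)) = true
        · rw [if_pos hb, one_smul, if_pos, List.map_cons, List.map_nil, List.sum_cons, List.sum_nil, add_zero, bs_er hr]
          rw [hb, bltT hs8]
          rfl
        · rw [if_neg hb, zero_smul, if_neg]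
          · rfl
          · intro h
            rw [Bool.and_eq_true] at h
            exact hb h.2
      · rw [bs_ge (by omega), Cfsg.Agent.H413.L16.br_comm]
        have h0 : brK (0 : LK) (er r) = 0 := by
          have := Cfsg.Agent.H971.RV.br_smul_left (D := chevE8) (0 : KK) (er r) (er r)
          rwa [zero_smul, zero_smul] at this
        rw [h0, if_neg]
        · rfl
        · intro h
          rw [Bool.and_eq_true] at h
          exact hs8 (ltB h.1)
  · rw [if_neg (bltF hr)]
    by_cases hs : s < 240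
    · by_cases hr8 : r < 248
      · rw [bs_er hs, bs, if_neg hr, br_hv _ hs, sum_car (by omega) hr8 hs]
        by_cases hb : bit CA (8 * s + (r - 240)) = true
        · rw [if_pos hb, one_smul, if_pos, List.map_cons, List.map_nil, List.sum_cons, List.sum_nil, add_zero, bs_er hs]
          rw [hb, bltT hr8,
            bltT hs]
          rfl
        · rw [if_neg hb, zero_smul, if_neg]
          · rfl
          · intro h
            rw [Bool.and_eq_true, Bool.and_eq_true] at h
            exact hb h.2.2
      · have h0 : brK (0 : LK) (bs s) = 0 := by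
          have := Cfsg.Agent.H971.RV.br_smul_left (D := chevE8) (0 : KK) (bs s) (bs s)
          rwa [zero_smul, zero_smul] at this
        rw [bs_ge (show 248 ≤ r by omega), h0, if_neg]
        · rfl
        · intro h
          rw [Bool.and_eq_true, Bool.and_eq_true] at h
          exact hr8 (ltB h.2.1)
    · rw [if_neg]
      · unfold bs
        rw [if_neg hr, if_neg hs, br_hh]
        rfl
      · intro h
        rw [Bool.and_eq_true] at h
        exact hs (ltB h.1)

/-! ### the operators -/

/-- the simple roots -/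
def six' : List ℕ := [162, 141, 135, 130, 126, 123, 121, 120]

theorem six_spec : ∀ i : Fin 8, ct (six'.getD i 0) = [240 + (i : ℕ)] ∧ six'.getD i 0 < 240 := by decide +kernel

theorem wi_all : ((List.range 240).all fun r => decide (wi r < 240) && decide (wi (239 - r) = 239 - wi r)) = true := by
  decide +kernel

theorem wi_lt {r : ℕ} (h : r < 240) : wi r < 240 := by
  have := List.all_eq_true.1 wi_all r (List.mem_range.2 h)
  rw [Bool.and_eq_true, decide_eq_true_eq] at this
  exact this.1

theorem wi_neg {r : ℕ} (h : r < 240) : wi (239 - r) = 239 - wi r := by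
  have := List.all_eq_true.1 wi_all r (List.mem_range.2 h)
  rw [Bool.and_eq_true, decide_eq_true_eq, decide_eq_true_eq] at this
  exact this.2

/-- the table of a permutation of the roots -/
def pT (σ : ℕ → ℕ) (s : ℕ) : List ℕ :=
  if Nat.blt s 240 = true then [σ s] else if Nat.blt s 248 = true then ct (σ (six'.getD (s - 240) 0)) else []

/-- the table of `xl r 1` -/
def xT (r s : ℕ) : List ℕ := s :: (bt r s ++ if Nat.beq (r + s) 239 = true then [r] else [])

/-- the tables of the root elements -/
def tb2 (i s : ℕ) : List ℕ := if (Nat.ble 8 i && Nat.blt i 248) = true then xT (i - 8) s else [s]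

/-- the tables -/
def tb (i s : ℕ) : List ℕ :=
  match i with
  | 0 => pT wi s
  | 1 => pT (fun r => wi (wi (wi (wi r)))) s
  | i + 2 => tb2 i s

/-- the powers -/
def ks (i : ℕ) : ℕ := if Nat.beq i 0 then 2 else 1

/-- the root elements -/
noncomputable def PHI2 (i : ℕ) : LK → LK := if h : 8 ≤ i ∧ i < 248 then xl ⟨i - 8, by rw [nr]; omega⟩ 1 else id

/-- the operators -/
noncomputable def PHI (Fp : LK → LK) (ta : LK →ₗ[KK] LK) (i : ℕ) : LK → LK :=
  match i with
  | 0 => Fp
  | 1 => ta
  | i + 2 => PHI2 i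

/-- a semilinear map which permutes the roots and respects the bracket -/
theorem perm_bs {Φ : LK → LK} {σ : ℕ → ℕ} (hb : ∀ u v, Φ (brK u v) = brK (Φ u) (Φ v)) (he : ∀ s < 240, Φ (er s) = er (σ s))
    (h0 : Φ 0 = 0) (hσ : ∀ r < 240, σ r < 240 ∧ σ (239 - r) = 239 - σ r) (s : ℕ) : Φ (bs s) = ((pT σ s).map bs).sum := by
  unfold pT
  by_cases hs : s < 240
  · rw [if_pos (bltT hs), List.map_cons, List.map_nil, List.sum_cons,
      List.sum_nil, add_zero, bs_er hs, he s hs, bs_er (hσ s hs).1]
  · rw [if_neg (bltF hs)]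
    by_cases hs8 : s < 248
    · rw [if_pos (bltT hs8)]
      obtain ⟨h1, h2⟩ := six_spec ⟨s - 240, by omega⟩
      rw [Fin.val_mk, show 240 + (s - 240) = s by omega] at h1
      rw [Fin.val_mk] at h2
      have h3 : bs s = hr (six'.getD (s - 240) 0) := by
        rw [hr_eq h2, h1, List.map_cons, List.map_nil, List.sum_cons, List.sum_nil, add_zero]
      rw [h3, ← br_neg h2, hb, he _ h2, he _ (by omega), (hσ _ h2).2, br_neg (hσ _ h2).1, hr_eq (hσ _ h2).1]
    · rw [if_neg (bltF hs8), bs_ge (by omega), h0]
      rfl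

theorem bs_inr (s : ℕ) (r : Fin chevE8.nroots) : bs s (Sum.inr r) = if s = r then 1 else 0 := by
  have hr : (r : ℕ) < 240 := lt_of_lt_of_eq r.2 nr
  unfold bs
  split_ifs with h1 h2 h2
  · subst h2
    rw [er_of r.2]
    exact Pi.single_eq_same _ _
  · rw [er_of (by rw [nr]; exact h1), Pi.single_eq_of_ne]
    intro h3
    exact h2 (congrArg Fin.val (Sum.inr.inj h3)).symm
  · omega
  · rfl

theorem xl_bs (r : Fin chevE8.nroots) (s : ℕ) : xl r 1 (bs s) = ((xT r s).map bs).sum := by
  have hr : (r : ℕ) < 240 := lt_of_lt_of_eq r.2 nr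
  unfold xl xT
  rw [List.map_cons, List.sum_cons, List.map_append, List.sum_append, ← bt_spec, bs_er hr, one_smul, one_pow, one_mul,
    bs_inr, ← add_assoc]
  congr 1
  have h1 : ((Fin.rev r : Fin chevE8.nroots) : ℕ) = 239 - r := by
    have h2 := nr
    rw [Fin.val_rev]
    omega
  rw [h1]
  by_cases h : (r : ℕ) + s = 239
  · rw [if_pos (show s = 239 - (r : ℕ) by omega), if_pos (by rw [h]; rfl), one_smul, List.map_cons, List.map_nil,
      List.sum_cons, List.sum_nil, add_zero, bs_er hr]
  · rw [if_neg (show ¬ s = 239 - (r : ℕ) by omega), if_neg (fun h2 => h (Nat.eq_of_beq_eq_true h2)), zero_smul]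
    rfl

theorem xl_add (r : Fin chevE8.nroots) (v w : LK) : xl r 1 (v + w) = xl r 1 v + xl r 1 w := by
  have h1 : brK (er r) (v + w) = brK (er r) v + brK (er r) w := Cfsg.Agent.H971.RV.br_add_right _ _ _
  unfold xl
  rw [one_smul, one_smul, one_smul, one_pow, one_mul, one_mul, one_mul, h1, Pi.add_apply, add_smul]
  abel

theorem xl_smul (r : Fin chevE8.nroots) (c : KK) (v : LK) : xl r 1 (c • v) = c • xl r 1 v := by
  have h1 : brK (er r) (c • v) = c • brK (er r) v := Cfsg.Agent.H971.RV.br_smul_right _ _ _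
  unfold xl
  rw [one_smul, one_smul, one_pow, one_mul, one_mul, h1, Pi.smul_apply, smul_add, smul_add, smul_smul, smul_eq_mul]

theorem ops {Fp : LK → LK} {ta : LK →ₗ[KK] LK} (H : Cfsg.Agent.H939.L16.Ops Fp ta) :
    Ops (K := KK) bs tb ks (PHI Fp ta) := by
  have hF0 : Fp 0 = 0 := by
    have := H.smul 0 0
    rwa [zero_smul, zero_pow two_ne_zero, zero_smul] at this
  have hw : ∀ r < 240, wi r < 240 ∧ wi (239 - r) = 239 - wi r := fun r hr => ⟨wi_lt hr, wi_neg hr⟩
  have hw4 : ∀ r < 240, wi (wi (wi (wi r))) < 240 ∧ wi (wi (wi (wi (239 - r)))) = 239 - wi (wi (wi (wi r))) := fun r hr =>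
    ⟨wi_lt (wi_lt (wi_lt (wi_lt hr))), by
      rw [wi_neg hr, wi_neg (wi_lt hr), wi_neg (wi_lt (wi_lt hr)), wi_neg (wi_lt (wi_lt (wi_lt hr)))]⟩
  refine ⟨fun i => ?_, fun i v w => ?_, fun i c s => ?_⟩
  · match i with
    | 0 => exact hF0
    | 1 => exact map_zero ta
    | i + 2 =>
      show PHI2 i 0 = 0
      unfold PHI2
      split_ifs with h
      · have := xl_smul ⟨i - 8, by rw [nr]; omega⟩ 0 0
        rwa [zero_smul, zero_smul] at this
      · rfl
  · match i with
    | 0 => exact H.add v w
    | 1 => exact map_add ta v w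
    | i + 2 =>
      show PHI2 i (v + w) = PHI2 i v + PHI2 i w
      unfold PHI2
      split_ifs with h
      · exact xl_add _ v w
      · rfl
  · match i with
    | 0 =>
      show Fp (c • bs s) = c ^ 2 • ((pT wi s).map bs).sum
      rw [H.smul, perm_bs H.br H.er hF0 hw]
    | 1 =>
      show ta (c • bs s) = c ^ 1 • ((pT (fun r => wi (wi (wi (wi r)))) s).map bs).sum
      rw [map_smul, pow_one, perm_bs (σ := fun r => wi (wi (wi (wi r)))) H.tbr H.ter (map_zero ta) hw4]
    | i + 2 =>
      show PHI2 i (c • bs s) = c ^ 1 • ((tb2 i s).map bs).sum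
      unfold PHI2 tb2
      rw [pow_one]
      by_cases h : 8 ≤ i ∧ i < 248
      · rw [dif_pos h, xl_smul, xl_bs, if_pos]
        rw [show Nat.ble 8 i = true from Nat.ble_eq_true_of_le h.1, bltT h.2]
        rfl
      · rw [dif_neg h, if_neg]
        · rw [List.map_cons, List.map_nil, List.sum_cons, List.sum_nil, add_zero]
          rfl
        · intro h2
          rw [Bool.and_eq_true] at h2
          exact h ⟨Nat.le_of_ble_eq_true h2.1, ltB h2.2⟩

/-! ### the theorems -/

/-- the value of an expression -/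
noncomputable def VAL (Fp : LK → LK) (ta : LK →ₗ[KK] LK) (x : ℕ → KK) (e : Ex) : LK := e.val x bs brM (PHI Fp ta)

/-- the coordinate -/
noncomputable def phi (u : ℕ) : LK →ₗ[KK] KK :=
  if h : u < chevE8.nroots then LinearMap.proj (Sum.inr ⟨u, h⟩)
  else if h : u - 240 < chevE8.rank then LinearMap.proj (Sum.inl ⟨u - 240, h⟩) else 0

theorem phi_bs {u : ℕ} (hu : u < 248) (s : ℕ) : phi u (bs s) = if s = u then 1 else 0 := by
  unfold phi
  by_cases h : u < chevE8.nroots
  · rw [dif_pos h]
    exact bs_inr s ⟨u, h⟩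
  · have h1 : ¬ u < 240 := by rw [← nr]; exact h
    have h2 : u - 240 < chevE8.rank := by rw [rk8]; omega
    rw [dif_neg h, dif_pos h2]
    show bs s (Sum.inl ⟨u - 240, h2⟩) = _
    unfold bs
    by_cases hs : s < 240
    · rw [if_pos hs, er_of (by rw [nr]; exact hs), Pi.single_eq_of_ne (by simp), if_neg (by omega)]
    · rw [if_neg hs]
      show (if u - 240 + 240 = s then (1 : KK) else 0) = _
      by_cases h3 : s = u
      · rw [if_pos h3, if_pos (by omega)]
      · rw [if_neg h3, if_neg (by omega)]

variable {Fp : LK → LK} {ta : LK →ₗ[KK] LK} (H : Cfsg.Agent.H939.L16.Ops Fp ta) (x : ℕ → KK)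

include H in
/-- **the coordinates of an expression** -/
theorem coord {e : Ex} {u : ℕ} {p : List (List ℕ)} (hu : u < 248) (h : e.chk bt tb ks u p = true) :
    phi u (VAL Fp ta x e) = evP x p :=
  Ex.coord x brM bt bt_spec (ops H) h (phi u) (phi_bs hu)

include H in
/-- **the relations** -/
theorem rel {e : Ex} {u : ℕ} {p : List (List ℕ)} (hu : u < 248) (h : e.chk bt tb ks u p = true) (h0 : VAL Fp ta x e = 0) :
    evP x p = 0 := by
  rw [← coord H x hu h, h0, map_zero]

include H in
/-- **equality of expressions** -/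
theorem eq_of {e e' : Ex} (h : (nrm (e.run bt tb ks ++ e'.run bt tb ks)).isEmpty = true) : VAL Fp ta x e = VAL Fp ta x e' :=
  Ex.eq_of x brM bt bt_spec (ops H) h

include H in
/-- **the value as a vector** -/
theorem val_eq (e : Ex) : VAL Fp ta x e = ev x bs (e.run bt tb ks) := Ex.val_eq x brM bt bt_spec (ops H) e

/-! ### unfolding -/

theorem VAL_lit (l : Vec) : VAL Fp ta x (.lit l) = ev x bs l := rfl

theorem VAL_add (a c : Ex) : VAL Fp ta x (.add a c) = VAL Fp ta x a + VAL Fp ta x c := rfl

theorem VAL_br (a c : Ex) : VAL Fp ta x (.br a c) = brK (VAL Fp ta x a) (VAL Fp ta x c) := rfl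

theorem VAL_fp (a : Ex) : VAL Fp ta x (.op 0 a) = Fp (VAL Fp ta x a) := rfl

theorem VAL_ta (a : Ex) : VAL Fp ta x (.op 1 a) = ta (VAL Fp ta x a) := rfl

end Cfsg.Agent.H996.L16
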